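import Cfsg.Agent.H806.Bs.GenB
import Cfsg.Agent.H847.Bs.Stmts

/-!
# BS30 of S5733 (helper806): `s30 : S30`

An irreducible subgroup of `SL(V)` containing `SL(W)`, `dim W ≥ 3` (trivial on a complement of `W`), is `SL(V)` or has
a proper block of dimension at least `3`.
-/

set_option autoImplicit false
set_option linter.unusedSectionVars false

namespace Cfsg.Agent.H806.Bs

open Module Cfsg.Agent.H847.Bs Cfsg.Agent.H806.Bs.McL

theorem gen_sl_three {F V : Type*} [Field F] [AddCommGroup V] [Module F V] {H : Subgroup (V ≃ₗ[F] V)}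
    [FiniteDimensional F V] (hI : IrrG H) {W U : Submodule F V} (hc : IsCompl W U)
    {d : ℕ} (hW : finrank F W = d) (hd : 3 ≤ d) (hon : HasOn (slV F V) H W U) :
    slV F V ≤ H ∨ ∃ D : Submodule F V, BlkL H D ∧ d ≤ finrank F D := by
  -- the transvections of `W`
  have hT : ∀ (w : V) (φ : Dual F V), w ∈ W → (∀ u ∈ U, φ u = 0) → φ w = 0 → Tv H w φ := by
    intro w φ hw hU h0
    refine ⟨h0, fun c => ?_⟩
    have h1 : (c • φ) w = 0 := by rw [LinearMap.smul_apply, h0, smul_zero]
    refine ⟨LinearEquiv.transvection h1, hon _ ?_ ?_ ?_, fun x => ?_⟩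
    · change LinearMap.det ((LinearEquiv.transvection h1 : V ≃ₗ[F] V) : V →ₗ[F] V) = 1
      rw [← LinearEquiv.coe_det, LinearEquiv.transvection.det_eq_one h1, Units.val_one]
    · intro v hv
      rw [LinearEquiv.transvection.apply]
      exact W.add_mem hv (W.smul_mem _ hw)
    · intro u hu
      rw [LinearEquiv.transvection.apply, LinearMap.smul_apply, hU u hu, smul_zero, zero_smul, add_zero]
    · rw [LinearEquiv.transvection.apply, LinearMap.smul_apply, smul_eq_mul]
  have : FiniteDimensional F W := inferInstance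
  let b : Basis (Fin d) F W := finBasisOfFinrankEq F W hW
  let π : V →ₗ[F] W := W.projectionOnto U hc
  have hπW : ∀ w : W, π w = w := fun w => Submodule.projectionOnto_apply_left hc w
  have hπU : ∀ u ∈ U, π u = 0 := fun u hu => (Submodule.projectionOnto_apply_eq_zero_iff hc).2 hu
  have hTi : ∀ i j : Fin d, i ≠ j → Tv H (b i : V) (b.coord j ∘ₗ π) := by
    intro i j hij
    refine hT _ _ (b i).2 (fun u hu => ?_) ?_
    · rw [LinearMap.comp_apply, hπU u hu, map_zero]
    · rw [LinearMap.comp_apply, hπW, Basis.coord_apply, Basis.repr_self, Finsupp.single_eq_of_ne hij.symm]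
  have hval : ∀ i : Fin d, (b.coord i ∘ₗ π) (b i : V) = 1 := by
    intro i
    rw [LinearMap.comp_apply, hπW, Basis.coord_apply, Basis.repr_self, Finsupp.single_eq_same]
  have hval' : ∀ i j : Fin d, i ≠ j → (b.coord j ∘ₗ π) (b i : V) = 0 := fun i j hij => (hTi i j hij).1
  let i0 : Fin d := ⟨0, by omega⟩
  let i1 : Fin d := ⟨1, by omega⟩
  let i2 : Fin d := ⟨2, by omega⟩
  have h01 : i0 ≠ i1 := fun h => by simpa [i0, i1] using congrArg Fin.val h
  have h02 : i0 ≠ i2 := fun h => by simpa [i0, i2] using congrArg Fin.val h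
  have h12 : i1 ≠ i2 := fun h => by simpa [i1, i2] using congrArg Fin.val h
  have hrel : ∀ i j : Fin d, i ≠ j → Rel H (b i : V) (b j : V) := fun i j hij =>
    ⟨_, _, hTi i j hij, hTi j i hij.symm, by rw [hval]; exact one_ne_zero,
      by rw [hval]; exact one_ne_zero⟩
  have ha : Ctr H (b i0 : V) := ⟨_, hrel i0 i1 h01⟩
  have hWle : W ≤ Wcp H (b i0 : V) := by
    have h1 : ∀ i : Fin d, (b i : V) ∈ Wcp H (b i0 : V) := by
      intro i
      by_cases hi : i0 = i
      · rw [← hi]; exact Submodule.subset_span (Cmp.refl _)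
      · exact Submodule.subset_span (hrel i0 i hi).cmp
    intro w hw
    have h2 := b.sum_repr ⟨w, hw⟩
    have h3 : (∑ i, b.repr ⟨w, hw⟩ i • (b i : V)) = w := by
      have h4 := congrArg Subtype.val h2
      rw [AddSubmonoidClass.coe_finsetSum] at h4
      exact h4
    rw [← h3]
    exact Submodule.sum_mem _ fun i _ => Submodule.smul_mem _ _ (h1 i)
  have h2 : d ≤ finrank F (Wcp H (b i0 : V)) := le_of_eq_of_le hW.symm (Submodule.finrank_mono hWle)
  have hm : 2 ≤ finrank F (Phi (full H) (b i0 : V)) := by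
    have hli : LinearIndependent F ![b.coord i1 ∘ₗ π, b.coord i2 ∘ₗ π] := by
      rw [LinearIndependent.pair_iff]
      intro s t h3
      have h4 := LinearMap.congr_fun h3 (b i1 : V)
      have h5 := LinearMap.congr_fun h3 (b i2 : V)
      rw [LinearMap.add_apply, LinearMap.smul_apply, LinearMap.smul_apply, hval, hval' i1 i2 h12] at h4
      rw [LinearMap.add_apply, LinearMap.smul_apply, LinearMap.smul_apply, hval, hval' i2 i1 h12.symm] at h5
      simp only [smul_eq_mul, mul_one, mul_zero, add_zero, zero_add, LinearMap.zero_apply] at h4 h5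
      exact ⟨h4, h5⟩
    have h3 := finrank_span_eq_card hli
    rw [Fintype.card_fin] at h3
    refine le_of_eq_of_le h3.symm (Submodule.finrank_mono ?_)
    rw [Submodule.span_le]
    rintro _ ⟨i, rfl⟩
    fin_cases i
    · exact hTi i0 i1 h01
    · exact hTi i0 i2 h02
  by_cases htop : Wcp H (b i0 : V) = ⊤
  · left
    refine sl_of_two hI ha hm htop ?_
    rw [htop, finrank_top] at h2
    omega
  · right
    exact ⟨_, blk hI ha htop, h2⟩

/-- **BS30.** -/
theorem s30 : S30 := by
  intro F V _ _ _ _ _ H W U _ hI hc hW hon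
  rcases gen_sl_three hI hc rfl hW hon with h | ⟨D, h1, h2⟩
  · exact Or.inl h
  · exact Or.inr ⟨D, h1, hW.trans h2⟩

end Cfsg.Agent.H806.Bs
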